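import Mathlib
import Cfsg.Agent.Lib.Helper5.CS4.Defs

set_option autoImplicit false

/-!
Package [COP] for S4146: commuting elements of coprime orders satisfy `C(xy) = C(x) ⊓ C(y)`.
-/

namespace Cfsg.Agent.Lib.Helper87.CS4

universe u

/-- For commuting `x`, `y` of coprime orders, `x` is an integer power of `x * y`. -/
theorem cop_left_zpow {G : Type u} [Group G] (x y : G) (hxy : x * y = y * x)
    (hcop : (orderOf x).Coprime (orderOf y)) : ∃ z : ℤ, (x * y) ^ z = x := by
  have hc : Commute x y := hxy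
  have hbez := Nat.gcd_eq_gcd_ab (orderOf x) (orderOf y)
  rw [hcop.gcd_eq_one] at hbez
  refine ⟨(orderOf y : ℤ) * Nat.gcdB (orderOf x) (orderOf y), ?_⟩
  rw [hc.mul_zpow, zpow_mul y, zpow_natCast, pow_orderOf_eq_one, one_zpow, mul_one]
  have h1 : (orderOf y : ℤ) * Nat.gcdB (orderOf x) (orderOf y) =
      1 - (orderOf x : ℤ) * Nat.gcdA (orderOf x) (orderOf y) := by
    have : ((1 : ℕ) : ℤ) = 1 := rfl
    rw [this] at hbez
    linarith
  rw [h1, zpow_sub, zpow_one, zpow_mul, zpow_natCast, pow_orderOf_eq_one, one_zpow, inv_one,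
    mul_one]

/-- [COP] -/
theorem pkgCop : Cfsg.Agent.Lib.Helper5.CS4.PkgCop.{u} := by
  intro G _ _ x y hxy hcop
  apply le_antisymm
  · intro g hg
    rw [Subgroup.mem_centralizer_iff] at hg
    have hg' : Commute (x * y) g := hg (x * y) rfl
    obtain ⟨z, hz⟩ := cop_left_zpow x y hxy hcop
    obtain ⟨w, hw⟩ := cop_left_zpow y x hxy.symm hcop.symm
    rw [← hxy] at hw
    rw [Subgroup.mem_inf]
    refine ⟨?_, ?_⟩
    · rw [Subgroup.mem_centralizer_iff]
      intro h hh
      rw [Set.mem_singleton_iff] at hh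
      subst hh
      have := hg'.zpow_left z
      rw [hz] at this
      exact this
    · rw [Subgroup.mem_centralizer_iff]
      intro h hh
      rw [Set.mem_singleton_iff] at hh
      subst hh
      have := hg'.zpow_left w
      rw [hw] at this
      exact this
  · intro g hg0
    rw [Subgroup.mem_inf] at hg0
    obtain ⟨hgx, hgy⟩ := hg0
    rw [Subgroup.mem_centralizer_iff] at hgx hgy ⊢
    intro h hh
    rw [Set.mem_singleton_iff] at hh
    subst hh
    have h1 : Commute x g := hgx x rfl
    have h2 : Commute y g := hgy y rfl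
    exact h1.mul_left h2

end Cfsg.Agent.Lib.Helper87.CS4
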