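import Mathlib
import Cfsg.Agent.Lib.Helper5.CS4.Defs

set_option autoImplicit false

/-!
Package [PP] for S4146: a non-central element has a non-central power of prime power order.
-/

namespace Cfsg.Agent.Lib.Helper87.CS4

universe u

theorem pp_aux {G : Type u} [Group G] [Finite G] : ∀ (N : ℕ) (x : G), orderOf x = N →
    x ∉ Subgroup.center G →
    ∃ (i p k : ℕ), p.Prime ∧ orderOf (x ^ i) = p ^ k ∧ x ^ i ∉ Subgroup.center G := by
  intro N
  induction N using Nat.strong_induction_on with
  | _ N ih =>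
    intro x hx hxc
    have hN0 : N ≠ 0 := by rw [← hx]; exact (orderOf_pos x).ne'
    have hN1 : N ≠ 1 := by
      rintro rfl
      rw [orderOf_eq_one_iff] at hx
      exact hxc (hx ▸ Subgroup.one_mem _)
    have hpp0 : (N.minFac).Prime := Nat.minFac_prime hN1
    have hdvd0 : N.minFac ∣ N := Nat.minFac_dvd N
    obtain ⟨p, hpp, hdvd⟩ : ∃ p : ℕ, p.Prime ∧ p ∣ N := ⟨_, hpp0, hdvd0⟩
    obtain ⟨e, b, hb, hNe⟩ := Nat.exists_eq_pow_mul_and_not_dvd hN0 p hpp.ne_one
    by_cases hb1 : b = 1
    · refine ⟨1, p, e, hpp, ?_, by simpa using hxc⟩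
      rw [pow_one, hx]
      rw [hb1, mul_one] at hNe
      exact hNe
    · have he : e ≠ 0 := by
        rintro rfl
        apply hb
        rw [pow_zero, one_mul] at hNe
        rw [← hNe]; exact hdvd
      have hcop : Nat.Coprime (p ^ e) b :=
        Nat.Coprime.pow_left e ((Nat.Prime.coprime_iff_not_dvd hpp).2 hb)
      have hb0 : b ≠ 0 := by rintro rfl; exact hb (dvd_zero _)
      have hpe : 1 < p ^ e := Nat.one_lt_pow he hpp.one_lt
      have hb2 : 1 < b := by omega
      have key : x ^ (p ^ e) ∉ Subgroup.center G ∨ x ^ b ∉ Subgroup.center G := by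
        by_contra hcon
        push_neg at hcon
        apply hxc
        have hbez := Nat.gcd_eq_gcd_ab (p ^ e) b
        rw [hcop.gcd_eq_one] at hbez
        have h1 : x = (x ^ (p ^ e)) ^ (Nat.gcdA (p ^ e) b) *
            (x ^ b) ^ (Nat.gcdB (p ^ e) b) := by
          rw [← zpow_natCast x (p ^ e), ← zpow_natCast x b, ← zpow_mul, ← zpow_mul,
            ← zpow_add, ← hbez]
          simp
        rw [h1]
        exact Subgroup.mul_mem _ (Subgroup.zpow_mem _ hcon.1 _) (Subgroup.zpow_mem _ hcon.2 _)
      rcases key with h1 | h1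
      · have ho : orderOf (x ^ (p ^ e)) = b := by
          rw [orderOf_pow_of_dvd (pow_ne_zero e hpp.ne_zero)
            (by rw [hx, hNe]; exact dvd_mul_right _ _), hx]
          conv_lhs => rw [hNe]
          exact Nat.mul_div_cancel_left _ (pow_pos hpp.pos e)
        have hlt : b < N := by
          have h3 : N = p ^ e * b := hNe
          have h4 : 1 * b < p ^ e * b := Nat.mul_lt_mul_of_pos_right hpe (by omega)
          omega
        obtain ⟨i, q, k, hq, hoi, hci⟩ := ih b hlt (x ^ (p ^ e)) ho h1
        refine ⟨p ^ e * i, q, k, hq, ?_, ?_⟩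
        · rw [pow_mul]; exact hoi
        · rw [pow_mul]; exact hci
      · have ho : orderOf (x ^ b) = p ^ e := by
          rw [orderOf_pow_of_dvd hb0 (by rw [hx, hNe]; exact dvd_mul_left _ _), hx]
          conv_lhs => rw [hNe]
          exact Nat.mul_div_cancel _ (by omega)
        have hlt : p ^ e < N := by
          have h3 : N = p ^ e * b := hNe
          have h4 : p ^ e * 1 < p ^ e * b := Nat.mul_lt_mul_of_pos_left hb2 (by omega)
          omega
        obtain ⟨i, q, k, hq, hoi, hci⟩ := ih (p ^ e) hlt (x ^ b) ho h1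
        refine ⟨b * i, q, k, hq, ?_, ?_⟩
        · rw [pow_mul]; exact hoi
        · rw [pow_mul]; exact hci

/-- [PP] -/
theorem pkgPP : Cfsg.Agent.Lib.Helper5.CS4.PkgPP.{u} := by
  intro G _ _ x hx
  exact pp_aux (orderOf x) x rfl hx

end Cfsg.Agent.Lib.Helper87.CS4
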