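import Mathlib
import Cfsg.Agent.Lib.Helper5.CS4.Defs

set_option autoImplicit false

/-!
Package [PROD] for S4146: coprime class sizes give `G = C(a) C(b)` and
`|G : C(a) ∩ C(b)| = n m`.
-/

namespace Cfsg.Agent.Lib.Helper87.CS4

universe u

/-- If `B.relIndex A = B.index` (finite group) then `G = A B`. -/
theorem prod_of_relIndex_eq {G : Type u} [Group G] [Finite G] (A B : Subgroup G)
    (h : B.relIndex A = B.index) (g : G) : ∃ k ∈ A, ∃ c ∈ B, g = k * c := by
  let f : A ⧸ (B.subgroupOf A) → G ⧸ B := Quotient.map' (fun k : A => (k : G)) (by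
    intro x y hxy
    rw [QuotientGroup.leftRel_apply] at hxy ⊢
    rw [Subgroup.mem_subgroupOf] at hxy
    simpa using hxy)
  have hf : ∀ k : A, f (QuotientGroup.mk k) = QuotientGroup.mk (k : G) := fun k => rfl
  have hinj : Function.Injective f := by
    intro x y
    induction x using Quotient.inductionOn' with
    | _ x =>
      induction y using Quotient.inductionOn' with
      | _ y =>
        intro hxy
        have h1 : (QuotientGroup.mk (x : G) : G ⧸ B) = QuotientGroup.mk (y : G) := hxy
        rw [QuotientGroup.eq] at h1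
        have h2 : (QuotientGroup.mk x : A ⧸ (B.subgroupOf A)) = QuotientGroup.mk y := by
          rw [QuotientGroup.eq, Subgroup.mem_subgroupOf]
          simpa using h1
        exact h2
  have hcard : Nat.card (G ⧸ B) ≤ Nat.card (A ⧸ (B.subgroupOf A)) := by
    have h1 : Nat.card (G ⧸ B) = B.index := rfl
    have h2 : Nat.card (A ⧸ (B.subgroupOf A)) = B.relIndex A := rfl
    rw [h1, h2, h]
  have hbij : Function.Bijective f := hinj.bijective_of_nat_card_le hcard
  obtain ⟨q, hq⟩ := hbij.2 (QuotientGroup.mk g)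
  induction q using Quotient.inductionOn' with
  | _ k =>
    have h1 : (QuotientGroup.mk (k : G) : G ⧸ B) = QuotientGroup.mk g := hq
    rw [QuotientGroup.eq] at h1
    refine ⟨k, k.2, (k : G)⁻¹ * g, h1, ?_⟩
    group

/-- [PROD] -/
theorem pkgProd : Cfsg.Agent.Lib.Helper5.CS4.PkgProd.{u} := by
  intro G _ _ n m hnm a b ha hb
  have ha' : (Subgroup.centralizer ({a} : Set G)).index = n := ha
  have hb' : (Subgroup.centralizer ({b} : Set G)).index = m := hb
  generalize hA : Subgroup.centralizer ({a} : Set G) = A at ha'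
  generalize hB : Subgroup.centralizer ({b} : Set G) = B at hb'
  have hidx : (A ⊓ B).index = n * m := by
    have h1 : n ∣ (A ⊓ B).index := ha' ▸ Subgroup.index_dvd_of_le inf_le_left
    have h2 : m ∣ (A ⊓ B).index := hb' ▸ Subgroup.index_dvd_of_le inf_le_right
    have h3 : n * m ∣ (A ⊓ B).index := Nat.Coprime.mul_dvd_of_dvd_of_dvd hnm h1 h2
    have h4 : (A ⊓ B).index ≤ n * m := by
      have := Subgroup.index_inf_le (H := A) (K := B)
      rwa [ha', hb'] at this
    have h5 : (A ⊓ B).index ≠ 0 := Subgroup.index_ne_zero_of_finite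
    exact le_antisymm h4 (Nat.le_of_dvd (Nat.pos_of_ne_zero h5) h3)
  refine ⟨?_, hidx⟩
  have hn0 : n ≠ 0 := by
    rw [← ha']; exact Subgroup.index_ne_zero_of_finite
  have hrel : B.relIndex A = B.index := by
    have h1 : (A ⊓ B).relIndex A * A.index = (A ⊓ B).index :=
      Subgroup.relIndex_mul_index inf_le_left
    rw [hidx, ha', Subgroup.inf_relIndex_left] at h1
    rw [hb']
    have h2 : B.relIndex A * n = m * n := by rw [h1, mul_comm]
    exact Nat.eq_of_mul_eq_mul_right (Nat.pos_of_ne_zero hn0) h2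
  intro g
  obtain ⟨k, hk, c, hc, hg⟩ := prod_of_relIndex_eq A B hrel g
  rw [← hA, Subgroup.mem_centralizer_iff] at hk
  rw [← hB, Subgroup.mem_centralizer_iff] at hc
  exact ⟨k, c, (hk a rfl).symm, (hc b rfl).symm, hg⟩

end Cfsg.Agent.Lib.Helper87.CS4
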